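import Mathlib
import Cfsg.Agent.Ree.Conc

/-!
# Traces of some elements of the small Ree groups in the seven-dimensional representation
-/

set_option autoImplicit false

namespace Cfsg.Agent.Ree

open Cfsg.Lie Cfsg.Agent.Chev Cfsg.Agent.Chev.G2
open scoped Matrix

variable {K : Type*} [Field K]

/-- The coefficient of the basis vector with code `b`. -/
def coefP (b : ℕ) (v : List Tm) : Poly := (v.filter fun τ => Nat.beq τ.1 b).map fun τ => τ.2

theorem evP_coefP (t u : K) (a : chevG2.Idx) (v : List Tm) :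
    evV chevG2 t u v a = evP t u (coefP (code chevG2 a) v) := by
  induction v with
  | nil => rfl
  | cons τ v ih =>
    rw [evV_cons, Pi.add_apply, ih, coefP, coefP, List.filter_cons]
    by_cases h : τ.1 = code chevG2 a
    · rw [if_pos (by simpa using h)]
      simp [bv, h, evP]
    · rw [if_neg (by simpa using h)]
      simp [bv, Ne.symm h]

theorem code_i7_eq : ∀ k : Fin 7, code chevG2 (i7 k) = codes7.getD k 0 := by decide +kernel

/-- The columns of a word are given by `cols`. -/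
def colsOk (w : List (ℕ × Poly)) (cols : List (List Tm)) : Bool :=
  allL w (fun a => Nat.blt a.1 12) && allN 7 fun k =>
    eqVP 3 ((tab chevG2).actW w [(codes7.getD k 0, 1, 0, 0)]) (cols.getD k [])

/-- The word for the involution of the torus. -/
def aW : List (ℕ × Poly) :=
  [(7, [(-1, 0, 0)]), (4, [(1, 0, 0)]), (7, [(-1, 0, 0)]), (7, [(-1, 0, 0)]), (4, [(1, 0, 0)]),
    (7, [(-1, 0, 0)]), (6, [(-1, 0, 0)]), (5, [(1, 0, 0)]), (6, [(-1, 0, 0)]), (6, [(-1, 0, 0)]),
    (5, [(1, 0, 0)]), (6, [(-1, 0, 0)])]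

/-- The word for `x₈(t) x₁₀(u)`. -/
def pW : List (ℕ × Poly) := [(8, [(1, 1, 0)]), (10, [(1, 0, 1)])]

/-- The word for `x₉(t) x₁₁(u)`. -/
def zW : List (ℕ × Poly) := [(9, [(1, 1, 0)]), (11, [(1, 0, 1)])]

/-- The columns of `nW ++ pW`. -/
def colA : List (List Tm) :=
  [[(3, -1, 1, 0), (12, -1, 0, 0)], [(7, -1, 1, 0), (9, -1, 0, 0), (2, 1, 1, 1), (4, -1, 0, 1)],
    [(12, -1, 1, 0), (3, 1, 2, 0), (8, -1, 0, 0)], [(7, -1, 0, 0), (2, 1, 0, 1)],
    [(2, 1, 1, 0), (4, -1, 0, 0)], [(3, -1, 0, 0)], [(2, -1, 0, 0)]]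

/-- The columns of `nW ++ aW ++ pW`. -/
def colA' : List (List Tm) :=
  [[(3, -1, 1, 0), (12, -1, 0, 0)], [(7, 1, 1, 0), (9, 1, 0, 0), (2, -1, 1, 1), (4, 1, 0, 1)],
    [(12, -1, 1, 0), (3, 1, 2, 0), (8, -1, 0, 0)], [(7, 1, 0, 0), (2, -1, 0, 1)],
    [(2, -1, 1, 0), (4, 1, 0, 0)], [(3, -1, 0, 0)], [(2, 1, 0, 0)]]

/-- The columns of `zW`. -/
def colB : List (List Tm) :=
  [[(9, -1, 1, 0), (12, 1, 0, 0)], [(12, -1, 1, 0), (9, -1, 2, 0), (2, 1, 0, 0), (8, 1, 0, 1)],
    [(7, 1, 1, 0), (3, 1, 0, 0), (9, -1, 0, 1)], [(8, -1, 1, 0), (4, 1, 0, 0)], [(7, 1, 0, 0)],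
    [(8, 1, 0, 0)], [(9, 1, 0, 0)]]

theorem chk_colA : colsOk (nW ++ pW) colA = true := by decide +kernel

theorem chk_colA' : colsOk (nW ++ (aW ++ pW)) colA' = true := by decide +kernel

theorem chk_colB : colsOk zW colB = true := by decide +kernel

variable [CharP K 3]

variable (K) in
/-- The matrices of the seven-dimensional representation. -/
noncomputable def mat7 : chevG2.group K →* Matrix (Fin 7) (Fin 7) K :=
  (res7 K).comp (((Units.coeHom _).comp (chevG2.group K).subtype).codRestrict _ mem_stab7)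

theorem mat7_word (t u : K) {w : List (ℕ × Poly)} {cols : List (List Tm)}
    (h : colsOk w cols = true) (i k : Fin 7) :
    mat7 K (word (xC chevG2 K) (evW t u w)) i k =
      evP t u (coefP (codes7.getD i 0) (cols.getD k [])) := by
  simp only [colsOk, Bool.and_eq_true, allN_iff, allL_iff, Nat.blt_eq] at h
  have h1 := evV_of_eqVP (D := chevG2) (three_int (K := K)) t u _ _ (h.2 k k.2)
  rw [← code_i7_eq, (actW_sound (D := chevG2) t u w h.1 _ (by simpa using code_lt chevG2 _)).1,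
    evV_basis, Matrix.mulVec_single_one, ← coe_word, ← coe_word_xC] at h1
  rw [← code_i7_eq, ← evP_coefP, ← h1]
  rfl

theorem trace_mul_word (t u t' u' : K) {w w' : List (ℕ × Poly)} {cols cols' : List (List Tm)}
    (h : colsOk w cols = true) (h' : colsOk w' cols' = true) :
    (mat7 K (word (xC chevG2 K) (evW t u w) * word (xC chevG2 K) (evW t' u' w'))).trace =
      ∑ i : Fin 7, ∑ k : Fin 7, evP t u (coefP (codes7.getD i 0) (cols.getD k [])) *
        evP t' u' (coefP (codes7.getD k 0) (cols'.getD i [])) := by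
  simp only [map_mul, Matrix.trace, Matrix.diag, Matrix.mul_apply, mat7_word t u h,
    mat7_word t' u' h']

omit [CharP K 3] in
theorem word_pW (c u : K) : word (xC chevG2 K) (evW c u pW) = Y4 c 0 u 0 := by
  simp [pW, evW, evP, Y4, xzero]

omit [CharP K 3] in
theorem word_zW (d v : K) : word (xC chevG2 K) (evW d v zW) = Y4 0 d 0 v := by
  simp [zW, evW, evP, Y4, xzero]

omit [CharP K 3] in
theorem word_evW_append (t u : K) (w w' : List (ℕ × Poly)) :
    word (xC chevG2 K) (evW t u (w ++ w')) =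
      word (xC chevG2 K) (evW t u w) * word (xC chevG2 K) (evW t u w') := by
  rw [evW, List.map_append, word_append]; rfl

variable (S : ChevSys rootTableG2 (xC chevG2 K)) (θ : K →+* K)

theorem word_aW (t u : K) : word (xC chevG2 K) (evW t u aW) = S.tor (cT θ (-1)) := by
  obtain ⟨i, j, hij, hall, e1, e2⟩ : ∃ i j : Fin chevG2.rank, i ≠ j ∧ (∀ k, k = i ∨ k = j) ∧
      chevG2.simple i = 7 ∧ chevG2.simple j = 6 := by decide +kernel
  have h0 : ∀ k : Fin 2, cT θ (-1) k = -1 := fun k => by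
    fin_cases k
    · exact Units.ext ((cT_zero θ _).trans (by simp [coe_kT]))
    · exact Units.ext ((congrArg Units.val (cT_one θ _)).trans (by simp [coe_kT]))
  have : cT θ (-1) = Pi.mulSingle i (-1) * Pi.mulSingle j (-1) := by
    funext k
    rw [h0 k]
    rcases hall k with rfl | rfl <;> simp [hij, hij.symm]
  rw [this, map_mul, S.tor_mulSingle, S.tor_mulSingle]
  have e3 : chevG2.neg 7 = 4 := by decide +kernel
  have e4 : chevG2.neg 6 = 5 := by decide +kernel
  simp [aW, evW, evP, hh, nn, e1, e2, e3, e4, mul_assoc]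

include S in
theorem xP_eq_Y4 (u v : K) : xP θ 0 u v = Y4 (θ u) 0 u 0 * Y4 0 (θ v) 0 v := by
  rw [Y4_mul S]
  simp [xP, X6, xzero]

include S in
theorem trace_n (u v : K) :
    (mat7 K (nG K * xP θ 0 u v)).trace = -1 + θ u ^ 2 + θ u * u + θ v ^ 2 := by
  rw [xP_eq_Y4 S, ← mul_assoc, ← word_pW, ← word_zW, ← word_nW (θ u) u, ← word_evW_append,
    trace_mul_word _ _ _ _ chk_colA chk_colB]
  simp [Fin.sum_univ_succ, codes7, colA, colB, coefP, evP, List.filter_cons]
  ring

theorem trace_na (u v : K) :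
    (mat7 K (nG K * S.tor (cT θ (-1)) * xP θ 0 u v)).trace =
      -1 + θ u ^ 2 - θ u * u - θ v ^ 2 := by
  rw [xP_eq_Y4 S, ← mul_assoc, mul_assoc (nG K), ← word_pW, ← word_zW, ← word_aW S θ (θ u) u,
    ← word_nW (θ u) u, ← word_evW_append, ← word_evW_append,
    trace_mul_word _ _ _ _ chk_colA' chk_colB]
  simp [Fin.sum_univ_succ, codes7, colA', colB, coefP, evP, List.filter_cons]
  ring

/-- The traces needed for the covering theorem. -/
def HasTr {m : ℕ} {G : Type*} [Group G] (R : Sys K m G) : Prop :=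
  ∃ (ρ : G →* Matrix (Fin 7) (Fin 7) K) (θ : K → K), (∀ t, R.σ (θ t) = t) ∧
    (∀ u v, (ρ (R.n * R.x 0 u v)).trace = -1 + θ u ^ 2 + θ u * u + θ v ^ 2) ∧
    ∀ u v, (ρ (R.n * R.a * R.x 0 u v)).trace = -1 + θ u ^ 2 - θ u * u - θ v ^ 2

omit [CharP K 3] in
theorem exists_sys_tr [Fintype K] {m : ℕ} (hK : Fintype.card K = 3 ^ (2 * m + 1)) :
    ∃ R : Sys K m (twistedG2 K (3 ^ m)), HasTr R := by
  obtain ⟨_, S, θ, hθ, he, hT⟩ := exists_data hK
  set j := Subgroup.inclusion (le_group (K := K) (e := 3 ^ m)) with hj0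
  have hj : Function.Injective j := Subgroup.inclusion_injective _
  let P := pre S θ hθ (m := m) (by rw [Nat.card_eq_fintype_card, hK]) he hT
  have hx : ∀ t u v, j ((P.sys hj).x t u v) = xP θ t u v := P.j_x hj
  have ha : j (P.sys hj).a = S.tor (cT θ (-1)) := P.j_h hj _
  have hn : j (P.sys hj).n = nG K := (P.j_φ hj _).trans (phi_w0 S θ)
  refine ⟨P.sys hj, (mat7 K).comp j, θ, fun t => (sg_apply θ _).trans (hθ t), fun u v => ?_,
    fun u v => ?_⟩
  · rw [MonoidHom.comp_apply, map_mul j, hn, hx, trace_n S]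
  · rw [MonoidHom.comp_apply, map_mul j, map_mul j, hn, ha, hx, trace_na S]

end Cfsg.Agent.Ree
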